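import Cfsg.Agent.Lib.Helper72.HUPT.Deg

/-!
# HUPT project, package CEN: the centraliser of `M` consists of scalars of `K`
-/

set_option autoImplicit false

universe u v

namespace Cfsg.Agent.Lib.Helper72.HUPT

open Cfsg.Agent.Lib.Helper50.HUPT

/-- Package CEN. -/
theorem pkgCen (hF : PkgFStr.{u}) (hC : PkgCenAbs.{u, v}) : PkgCen.{u, v} := by
  intro q _ V _ _ _ _ G _ _ ρ hρ M K hK hCl hZ hcomm m hm hidx g hg hgK
  obtain ⟨F, instF, instFin, instMod, hcard, hFK, hKF⟩ := hF K hK
  have hlin : ∀ a ∈ M, ∀ (c : F) (v : V), ρ a (c • v) = c • ρ a v :=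
    fun a ha c v => hlin_of ρ K hFK a (hcomm a ha) c v
  have hfin : Module.Finite F V := Module.Finite.of_finite
  have hcardV : Nat.card V = Nat.card F ^ Module.finrank F V := Module.natCard_eq_pow_finrank
  have hF1 : 1 < Nat.card F := by
    have : Fintype F := Fintype.ofFinite F
    rw [Nat.card_eq_fintype_card]
    exact Fintype.one_lt_card
  have hmeq : Module.finrank F V = m := by
    rw [hm, ← hcard] at hcardV
    exact (Nat.pow_right_injective hF1 hcardV).symm
  -- `ρ g` as an `F`-linear map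
  let T : V →ₗ[F] V :=
    { toFun := fun v => ρ g v
      map_add' := fun v w => map_add _ v w
      map_smul' := fun c v => hlin_of ρ K hFK g hgK c v }
  have hT : ∀ (a : ↥M) (v : V), T (tauF ρ M hlin a v) = tauF ρ M hlin a (T v) := by
    intro a v
    change ρ g (ρ (a : G) v) = ρ (a : G) (ρ g v)
    have h1 : ρ (g * (a : G)) v = ρ ((a : G) * g) v := by rw [hg (a : G) a.2]
    simpa using h1
  obtain ⟨c, hc⟩ := hC (tauF ρ M hlin) (tauF_injective ρ hρ M hlin) (cl2_coe M hCl)
    (by
      intro z hz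
      obtain ⟨c, hc⟩ := hKF _ (hZ (z : G) z.2 (center_coe M z hz))
      exact ⟨c, fun v => hc v⟩)
    (by rw [hmeq]; exact hidx) T hT
  obtain ⟨f, hf, hfv⟩ := hFK c
  have : toE ρ g = f := by
    apply LinearMap.ext
    intro v
    rw [← hfv v, ← hc v]
    rfl
  rw [this]
  exact hf

end Cfsg.Agent.Lib.Helper72.HUPT
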