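import Cfsg.Agent.Lib.Helper50.HUPT.Defs

/-!
# HUPT project, package DEG: the degree bound over the field `K`
-/

set_option autoImplicit false

universe u v

namespace Cfsg.Agent.Lib.Helper72.HUPT

open Cfsg.Agent.Lib.Helper50.HUPT

/-- the action of `M` on `V`, as `F`-linear automorphisms, when `ρ(M)` commutes with the
scalars of `F` -/
noncomputable def tauF {q : ℕ} [Fact q.Prime] {V : Type u} [AddCommGroup V] [Module (ZMod q) V]
    {G : Type v} [Group G] (ρ : G →* (V ≃ₗ[ZMod q] V)) (M : Subgroup G)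
    {F : Type u} [Field F] [Module F V]
    (hlin : ∀ a ∈ M, ∀ (c : F) (v : V), ρ a (c • v) = c • ρ a v) : ↥M →* (V ≃ₗ[F] V) where
  toFun a :=
    { toFun := fun v => ρ (a : G) v
      map_add' := fun v w => map_add _ v w
      map_smul' := fun c v => hlin a a.2 c v
      invFun := fun v => (ρ (a : G)).symm v
      left_inv := fun v => by simp
      right_inv := fun v => by simp }
  map_one' := by
    ext v
    simp
  map_mul' a b := by
    ext v
    simp

theorem tauF_apply {q : ℕ} [Fact q.Prime] {V : Type u} [AddCommGroup V] [Module (ZMod q) V]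
    {G : Type v} [Group G] (ρ : G →* (V ≃ₗ[ZMod q] V)) (M : Subgroup G)
    {F : Type u} [Field F] [Module F V]
    (hlin : ∀ a ∈ M, ∀ (c : F) (v : V), ρ a (c • v) = c • ρ a v) (a : ↥M) (v : V) :
    tauF ρ M hlin a v = ρ (a : G) v := rfl

theorem tauF_injective {q : ℕ} [Fact q.Prime] {V : Type u} [AddCommGroup V] [Module (ZMod q) V]
    {G : Type v} [Group G] (ρ : G →* (V ≃ₗ[ZMod q] V)) (hρ : Function.Injective ρ)
    (M : Subgroup G) {F : Type u} [Field F] [Module F V]
    (hlin : ∀ a ∈ M, ∀ (c : F) (v : V), ρ a (c • v) = c • ρ a v) :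
    Function.Injective (tauF ρ M hlin) := by
  intro a b hab
  apply Subtype.ext
  apply hρ
  ext v
  have := congrArg (fun e : V ≃ₗ[F] V => e v) hab
  simpa [tauF_apply] using this

theorem cl2_coe {G : Type v} [Group G] (M : Subgroup G) (hCl : Cl2 M) (a b c : ↥M) :
    cm a b * c = c * cm a b := by
  apply Subtype.ext
  have := hCl (a : G) a.2 (b : G) b.2 (c : G) c.2
  simpa [cm] using this

theorem center_coe {G : Type v} [Group G] (M : Subgroup G) (z : ↥M)
    (hz : z ∈ Subgroup.center ↥M) : ∀ b ∈ M, (z : G) * b = b * (z : G) := by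
  intro b hb
  have h := Subgroup.mem_center_iff.mp hz ⟨b, hb⟩
  have := congrArg (fun x : ↥M => (x : G)) h
  simpa using this.symm

/-- the scalars of `F` commute with `ρ a`, for `a ∈ M` -/
theorem hlin_of {q : ℕ} [Fact q.Prime] {V : Type u} [AddCommGroup V] [Module (ZMod q) V]
    {G : Type v} [Group G] (ρ : G →* (V ≃ₗ[ZMod q] V)) (K : Subalgebra (ZMod q)
    (Module.End (ZMod q) V)) {F : Type u} [Field F] [Module F V]
    (hFK : ∀ c : F, ∃ f ∈ K, ∀ v : V, c • v = f v) (g : G)
    (hcomm : ∀ f ∈ K, toE ρ g * f = f * toE ρ g) (c : F) (v : V) :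
    ρ g (c • v) = c • ρ g v := by
  obtain ⟨f, hf, hfv⟩ := hFK c
  rw [hfv, hfv]
  have := congrArg (fun T : Module.End (ZMod q) V => T v) (hcomm f hf)
  simpa [toE] using this

/-- Package DEG. -/
theorem pkgDeg (hF : PkgFStr.{u}) (hD : PkgDegAbs.{u, v}) : PkgDeg.{u, v} := by
  intro q _ V _ _ _ _ G _ _ ρ hρ M K hK hCl hZ hcomm
  obtain ⟨F, instF, instFin, instMod, hcard, hFK, hKF⟩ := hF K hK
  have hlin : ∀ a ∈ M, ∀ (c : F) (v : V), ρ a (c • v) = c • ρ a v :=
    fun a ha c v => hlin_of ρ K hFK a (hcomm a ha) c v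
  have : Module.Finite F V := Module.Finite.of_finite
  refine ⟨Module.finrank F V, ?_, ?_⟩
  · rw [← hcard]
    exact Module.natCard_eq_pow_finrank
  · refine hD (tauF ρ M hlin) (tauF_injective ρ hρ M hlin) (cl2_coe M hCl) ?_
    intro z hz
    obtain ⟨c, hc⟩ := hKF _ (hZ (z : G) z.2 (center_coe M z hz))
    exact ⟨c, fun v => hc v⟩

end Cfsg.Agent.Lib.Helper72.HUPT
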